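import Cfsg.Agent.Lib.Sig.MLrep
import Cfsg.Agent.Lib.PGroup.Basic
import Cfsg.Agent.Lib.OddLocal.Puig
import Cfsg.Agent.Lib.Perm.PermModule

/-! # Derived length of linear `p`-groups -/

set_option autoImplicit false

namespace H31.DL

open Subgroup Module H31.ML
open scoped commutatorElement

universe u v

theorem der_add_le {G H : Type*} [Group G] [Group H] (f : H →* G) {j : ℕ}
    (h : derivedSeries G j ≤ f.range) (i : ℕ) :
    derivedSeries G (j + i) ≤ (derivedSeries H i).map f := by
  induction i with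
  | zero => rwa [derivedSeries_zero, ← MonoidHom.range_eq_map]
  | succ i ih =>
    rw [← add_assoc, derivedSeries_succ, derivedSeries_succ, Subgroup.map_commutator]
    exact Subgroup.commutator_mono ih ih

theorem der_anti {G : Type*} [Group G] {i j : ℕ} (h : i ≤ j) :
    derivedSeries G j ≤ derivedSeries G i := by
  induction h with
  | refl => exact le_rfl
  | step _ ih => exact (commutator_le_right _ _).trans ih

theorem der_le_of_index {p : ℕ} [hp : Fact p.Prime] (a : ℕ) :
    ∀ (P : Type u) [Group P] [Finite P], IsPGroup p P → ∀ S : Subgroup P, S.index < p ^ (a + 1) →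
      derivedSeries P a ≤ S := by
  have key : ∀ (P : Type u) [Group P] [Finite P], IsPGroup p P → ∀ S : Subgroup P, S ≠ ⊤ →
      ∃ M : Subgroup P, S ≤ M ∧ commutator P ≤ M ∧ S.relIndex M * p = S.index := by
    intro P _ _ hP S hS
    obtain ⟨M, h1, h2, h3, -⟩ := H5.exists_le_normal_index_eq hP hS
    exact ⟨M, h1, H5.commutator_le_of_index_prime (h3 ▸ hp.out), h3 ▸ relIndex_mul_index h1⟩
  induction a with
  | zero =>
    intro P _ _ hP S h
    by_contra hS
    obtain ⟨M, -, -, h3⟩ := key P hP S fun e => hS (e ▸ le_top)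
    have := Nat.le_of_dvd (Nat.pos_of_ne_zero S.index_ne_zero_of_finite) (Dvd.intro_left _ h3)
    simp at h
    omega
  | succ a ih =>
    intro P _ _ hP S h
    by_cases hS : S = ⊤
    · exact hS ▸ le_top
    obtain ⟨M, h1, h2, h3⟩ := key P hP S hS
    have h4 := ih M (hP.to_subgroup M) (S.subgroupOf M) (by
      rw [← h3, pow_succ] at h
      exact lt_of_mul_lt_mul_right h (Nat.zero_le _))
    rw [add_comm]
    refine (der_add_le M.subtype (j := 1) (by rwa [range_subtype, derivedSeries_one]) a).trans ?_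
    exact (map_mono h4).trans (by rw [subgroupOf_map_subtype]; exact inf_le_left)

variable {k : Type*} [Field k]

/-- Restriction of a representation to a subgroup leaving a subspace invariant. -/
def resRep {P M : Type*} [Group P] [AddCommGroup M] [Module k M] (ρ : Representation k P M)
    (S : Subgroup P) (W : Submodule k M) (h : ∀ g ∈ S, ∀ v ∈ W, ρ g v ∈ W) :
    Representation k S W where
  toFun g := (ρ g).restrict (h g g.2)
  map_one' := by ext; simp
  map_mul' a b := by ext; simp

/-- The stabiliser of a subspace. -/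
def stab {P M : Type*} [Group P] [AddCommGroup M] [Module k M] (ρ : Representation k P M)
    (W : Submodule k M) : Subgroup P where
  carrier := {g | ∀ v, ρ g v ∈ W ↔ v ∈ W}
  one_mem' := by simp
  mul_mem' := fun {a b} ha hb v => by rw [map_mul, End.mul_apply, ha, hb]
  inv_mem' := fun {a} ha v => by rw [← ha]; simp

theorem index_stab_mul_le {P M : Type*} [Group P] [Finite P] [AddCommGroup M] [Module k M]
    [FiniteDimensional k M] (ρ : Representation k P M) (A : Subgroup P) [A.Normal]
    (hA : A ≤ centralizer A) (l : A → k) :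
    (stab ρ (wsp ρ A l)).index * finrank k (wsp ρ A l) ≤ finrank k M := by
  classical
  have hn : ∀ g : P, g ∈ normalizer (A : Set P) := fun g => by
    rw [normalizer_eq_top]; trivial
  choose f hf using fun g : P => wsp_conj (ρ := ρ) (hn g) l
  have h1 : ∀ g, finrank k (wsp ρ A l) ≤ finrank k (wsp ρ A (f g)) := fun g =>
    LinearMap.finrank_le_finrank_of_injective (f := (ρ g⁻¹).restrict fun v hv => (hf g _).2
      (by simpa using hv)) fun a b e => Subtype.ext (by
        simpa using congrArg (fun z : wsp ρ A (f g) => ρ g z) e)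
  have := Fintype.ofFinite (P ⧸ stab ρ (wsp ρ A l))
  have h2 : Function.Injective fun c : P ⧸ stab ρ (wsp ρ A l) => f c.out⁻¹ := fun c d e => by
    rw [← c.out_eq, ← d.out_eq, QuotientGroup.eq]
    intro v
    have e1 : f c.out⁻¹ = f d.out⁻¹ := e
    rw [map_mul, End.mul_apply, ← hf, e1, hf]
    simp
  have h3 := sum_finrank_le ((wsp_indep (ρ := ρ) hA).comp h2) (fun _ => le_rfl) Finset.univ
    (U := ⊤) fun _ _ => le_top
  rw [finrank_top] at h3
  refine le_trans ?_ h3
  rw [index, Nat.card_eq_fintype_card, ← Finset.card_univ, ← smul_eq_mul]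
  exact Finset.card_nsmul_le_sum _ _ _ fun c _ => h1 _

theorem der_le_ker_cross [IsAlgClosed k] {p : ℕ} [hp : Fact p.Prime] (hk : (p : k) ≠ 0) (n : ℕ) :
    ∀ (P : Type u) [Group P] [Finite P] (M : Type v) [AddCommGroup M] [Module k M]
      [FiniteDimensional k M] (ρ : Representation k P M), IsPGroup p P → finrank k M = n →
      ∀ j, n < p ^ j → derivedSeries P j ≤ ρ.ker := by
  induction n using Nat.strong_induction_on with
  | _ n ih =>
  have faith : ∀ (P : Type u) [Group P] [Finite P] (M : Type v) [AddCommGroup M] [Module k M]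
      [FiniteDimensional k M] (ρ : Representation k P M), Function.Injective ρ → IsPGroup p P →
      finrank k M = n → ∀ j, n < p ^ j → derivedSeries P j ≤ ρ.ker := by
    intro P _ _ M _ _ _ ρ hρ hP hn j hj g hg
    have := hP.isNilpotent
    obtain ⟨A, hA1, hA2, hA3⟩ := H50.Puig.exists_selfCentralizing_normal P
    have hA : A ≤ centralizer A := le_centralizer A
    obtain ⟨m, hm⟩ := hP.exists_card_eq
    refine eq_of_wsp (ρ := ρ) hA (n := Nat.card P) (by rw [hm]; exact_mod_cast pow_ne_zero m hk)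
      (fun x _ => pow_card_eq_one') fun l v hv => ?_
    by_cases h0 : wsp ρ A l = ⊥
    · rw [h0] at hv
      simp [(Submodule.mem_bot k).1 hv]
    have h1 : 0 < finrank k (wsp ρ A l) := Nat.pos_of_ne_zero fun e =>
      h0 (Submodule.finrank_eq_zero.1 e)
    have h2 := index_stab_mul_le ρ A hA l
    by_cases h3 : wsp ρ A l = ⊤
    · have h4 : ∀ x : P, x ∈ A := fun x => hA3 fun a ha => hρ (by
        refine LinearMap.ext fun w => ?_
        have h5 : ∀ w, ρ a w = l ⟨a, ha⟩ • w := fun w =>
          (h3 ▸ Submodule.mem_top : w ∈ wsp ρ A l) ⟨a, ha⟩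
        rw [map_mul, map_mul, End.mul_apply, End.mul_apply, h5, h5, map_smul])
      have h5 : 1 ≤ j := Nat.pos_of_ne_zero fun e => by
        have := Submodule.finrank_le (wsp ρ A l)
        rw [e, pow_zero] at hj
        omega
      have h6 : derivedSeries P 1 ≤ ⊥ := by
        rw [derivedSeries_one, commutator_def, commutator_le]
        exact fun a _ b _ => commutatorElement_eq_one_iff_mul_comm.2 (hA (h4 b) a (h4 a))
      rw [mem_bot.1 (h6 (der_anti h5 hg)), map_one]
    obtain ⟨a, ha⟩ := hP.index (stab ρ (wsp ρ A l))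
    rw [ha, hn] at h2
    have h4 : a ≤ j := by
      by_contra h
      have := Nat.pow_le_pow_right hp.out.pos (not_le.1 h).le
      nlinarith
    obtain ⟨i, rfl⟩ := Nat.exists_eq_add_of_le h4
    have h5 := ih _ (hn ▸ Submodule.finrank_lt h3) (stab ρ (wsp ρ A l)) (wsp ρ A l)
      (resRep ρ _ _ fun g hg v hv => (hg v).2 hv) (hP.to_subgroup _) rfl i (by
        rw [pow_add] at hj
        exact lt_of_mul_lt_mul_left (h2.trans_lt hj) (Nat.zero_le _))
    obtain ⟨x, hx, rfl⟩ := der_add_le (stab ρ (wsp ρ A l)).subtype (j := a) (by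
      rw [range_subtype]
      exact der_le_of_index a P hP _ (ha ▸ Nat.pow_lt_pow_right hp.out.one_lt a.lt_succ_self)) i hg
    exact congrArg Subtype.val (LinearMap.congr_fun (h5 hx) ⟨v, hv⟩)
  intro P _ _ M _ _ _ ρ hP hn j hj g hg
  refine faith (P ⧸ ρ.ker) M (QuotientGroup.lift ρ.ker ρ le_rfl) (fun a b e => ?_)
    (hP.to_quotient _) hn j hj (map_derivedSeries_le_derivedSeries (QuotientGroup.mk' _) j
      ⟨g, hg, rfl⟩)
  obtain ⟨a, rfl⟩ := QuotientGroup.mk_surjective a
  obtain ⟨b, rfl⟩ := QuotientGroup.mk_surjective b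
  have e1 : ρ a = ρ b := e
  exact QuotientGroup.eq.2 (by rw [MonoidHom.mem_ker, map_mul, ← e1, ← map_mul]; simp)

/-- The ascending filtration by fixed points. -/
def fil {P M : Type*} [Group P] [AddCommGroup M] [Module k M] (ρ : Representation k P M) :
    ℕ → Submodule k M
  | 0 => ⊥
  | i + 1 => ⨅ g, (fil ρ i).comap (ρ g - 1)

section charp
variable {P M : Type*} [Group P] [AddCommGroup M] [Module k M] (ρ : Representation k P M)

theorem mem_fil {i : ℕ} {v : M} : v ∈ fil ρ (i + 1) ↔ ∀ g, ρ g v - v ∈ fil ρ i := by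
  simp [fil, Submodule.mem_iInf]

theorem fil_inv (i : ℕ) : ∀ g, ∀ v ∈ fil ρ i, ρ g v ∈ fil ρ i := by
  induction i with
  | zero => intro g v hv; simp [(Submodule.mem_bot k).1 hv]
  | succ i ih =>
    intro g v hv
    refine (mem_fil ρ).2 fun h => ?_
    simpa using ih g _ ((mem_fil ρ).1 hv (g⁻¹ * h * g))

theorem fil_le_succ (i : ℕ) : fil ρ i ≤ fil ρ (i + 1) := fun v hv =>
  (mem_fil ρ).2 fun g => Submodule.sub_mem _ (fil_inv ρ i g v hv) hv

theorem der_fil (j : ℕ) : ∀ g ∈ derivedSeries P j, ∀ i, ∀ v ∈ fil ρ (i + 2 ^ j),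
    ρ g v - v ∈ fil ρ i := by
  induction j with
  | zero => exact fun g _ i v hv => (mem_fil ρ).1 hv g
  | succ j ih =>
    let K : Subgroup P :=
      { carrier := {g | ∀ i, ∀ v ∈ fil ρ (i + 2 ^ (j + 1)), ρ g v - v ∈ fil ρ i}
        one_mem' := by simp
        mul_mem' := fun {a b} ha hb i v hv => by
          simpa using Submodule.add_mem _ (ha i _ (fil_inv ρ _ b v hv)) (hb i v hv)
        inv_mem' := fun {a} ha i v hv => by
          simpa using Submodule.neg_mem _ (ha i _ (fil_inv ρ _ a⁻¹ v hv)) }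
    refine (commutator_le (H₃ := K)).2 fun a ha b hb i v hv => ?_
    rw [pow_succ, mul_two, ← add_assoc] at hv
    have hw := fil_inv ρ _ (a⁻¹ * b⁻¹) v hv
    have h1 := Submodule.sub_mem _ (ih a ha i _ (ih b hb _ _ hw)) (ih b hb i _ (ih a ha _ _ hw))
    convert h1 using 1
    simp [commutatorElement_def]
    abel

theorem fil_top {p : ℕ} [Fact p.Prime] [CharP k p] [Finite P] (hP : IsPGroup p P)
    [FiniteDimensional k M] (i : ℕ) : fil ρ i = ⊤ ∨ i ≤ finrank k (fil ρ i) := by
  induction i with
  | zero => simp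
  | succ i ih =>
    by_cases h : fil ρ i = ⊤
    · exact Or.inl (top_le_iff.1 (h ▸ fil_le_succ ρ i))
    refine Or.inr ((ih.resolve_left h).trans_lt (Submodule.finrank_lt_finrank_of_lt
      ((fil_le_succ ρ i).lt_of_ne fun e => ?_)))
    have := Submodule.Quotient.nontrivial_iff.2 h
    obtain ⟨w, -, h0, hw⟩ := H26.exists_fixed_vector_of_isPGroup hP
      (ρ.quotient (fil ρ i) fun g v hv => fil_inv ρ i g v hv) ⊤ (fun _ _ _ => trivial) top_ne_bot
    obtain ⟨w, rfl⟩ := Submodule.Quotient.mk_surjective _ w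
    exact h0 ((Submodule.Quotient.mk_eq_zero _).2 (e ▸ (mem_fil ρ).2 fun g =>
      (Submodule.Quotient.eq _).1 (hw g)))

theorem der_le_ker_charP {p : ℕ} [Fact p.Prime] [CharP k p] [Finite P] (hP : IsPGroup p P)
    [FiniteDimensional k M] {j : ℕ} (hj : finrank k M ≤ 2 ^ j) : derivedSeries P j ≤ ρ.ker := by
  have h : fil ρ (0 + 2 ^ j) = ⊤ := (fil_top ρ hP _).elim id fun h =>
    Submodule.eq_top_of_finrank_eq (le_antisymm (Submodule.finrank_le _) (by omega))
  exact fun g hg => LinearMap.ext fun v => sub_eq_zero.1 (der_fil ρ j g hg 0 v (h ▸ trivial))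

end charp

end H31.DL
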